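import Mathlib
import Cfsg.Agent.H478.InvProd
import Cfsg.Agent.Classification.TypeB.Basic
import Cfsg.Agent.Lib.SolvableMinNormal

/-!
# Involutions whose centralizer is `⟨J⟩ × T`, `T ≅ A₄` or `A₅`: one class of involutions, trivial radical
-/

set_option autoImplicit false

namespace Cfsg.Agent.H478.InvAlt

open Cfsg Subgroup Equiv Equiv.Perm
open Cfsg.Agent.H478.InvProd

theorem alt_three {m : ℕ} (hm : m ≤ 3) : ∀ z : alternatingGroup (Fin m), z * z = 1 → z = 1 := by
  interval_cases m <;> decide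

theorem exp4 : ∀ z : Perm (Fin 4), sign z = 1 → z * z * (z * z) = 1 → z * z = 1 := by decide +kernel

theorem exp5 : ∀ z : Perm (Fin 5), sign z = 1 → z * z * (z * z) = 1 → z * z = 1 := by decide +kernel

/-- Even involutions of degree at most 5 are conjugate in the alternating group. -/
theorem alt_conj {m : ℕ} (hm : m ≤ 5) (s t : alternatingGroup (Fin m)) (hs : s * s = 1) (hs1 : s ≠ 1)
    (ht : t * t = 1) (ht1 : t ≠ 1) : ∃ g : alternatingGroup (Fin m), g * s * g⁻¹ = t := by
  have key : ∀ s : alternatingGroup (Fin m), s * s = 1 → s ≠ 1 → (s : Perm (Fin m)).cycleType = {2, 2} := by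
    intro s hs hs1
    have h1 : orderOf (s : Perm (Fin m)) = 2 := by
      rw [Subgroup.orderOf_coe]
      exact orderOf_eq_prime (by rw [pow_two]; exact hs) hs1
    obtain ⟨n, hn⟩ := cycleType_prime_order (σ := (s : Perm (Fin m))) (by rw [h1]; exact Nat.prime_two)
    rw [h1] at hn
    have h2 := sum_cycleType (s : Perm (Fin m))
    rw [hn] at h2
    have h3 : (s : Perm (Fin m)).support.card ≤ m := by
      have := Finset.card_le_univ (s : Perm (Fin m)).support
      rwa [Fintype.card_fin] at this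
    simp only [Multiset.sum_replicate, smul_eq_mul] at h2
    have h4 : sign (s : Perm (Fin m)) = 1 := mem_alternatingGroup.1 s.2
    rw [sign_of_cycleType, hn] at h4
    have h5 : n = 0 ∨ n = 1 := by omega
    rcases h5 with rfl | rfl
    · exfalso
      simp only [Multiset.sum_replicate, Multiset.card_replicate] at h4
      exact absurd h4 (by decide)
    · rw [hn]; rfl
  have h1 : IsConj (s : Perm (Fin m)) t := by
    rw [isConj_iff_cycleType_eq, key s hs hs1, key t ht ht1]
  obtain ⟨g, hg⟩ := isConj_iff.1 h1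
  rcases Int.units_eq_one_or (sign g) with h2 | h2
  · exact ⟨⟨g, mem_alternatingGroup.2 h2⟩, Subtype.ext hg⟩
  · obtain ⟨a, ha⟩ : ∃ a, (s : Perm (Fin m)) a ≠ a := by
      by_contra hcon
      push Not at hcon
      exact hs1 (Subtype.ext (Equiv.ext hcon))
    have hsa : (s : Perm (Fin m)) ((s : Perm (Fin m)) a) = a := by
      have := congrArg (fun z : alternatingGroup (Fin m) => (z : Perm (Fin m)) a) hs
      exact this
    have hc : (s : Perm (Fin m)) * swap a ((s : Perm (Fin m)) a) * (s : Perm (Fin m))⁻¹ =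
        swap a ((s : Perm (Fin m)) a) := by
      rw [← swap_apply_apply, hsa, swap_comm]
    set c := swap a ((s : Perm (Fin m)) a) with hcdef
    refine ⟨⟨g * c, mem_alternatingGroup.2 ?_⟩, Subtype.ext ?_⟩
    · rw [map_mul, h2, hcdef, sign_swap ha.symm]; decide
    · show g * c * (s : Perm (Fin m)) * (g * c)⁻¹ = t
      have h3 : c * (s : Perm (Fin m)) * c⁻¹ = s := by
        have h4 : (s : Perm (Fin m)) * c = c * s := mul_inv_eq_iff_eq_mul.1 hc
        rw [← h4]; group
      calc g * c * (s : Perm (Fin m)) * (g * c)⁻¹ = g * (c * (s : Perm (Fin m)) * c⁻¹) * g⁻¹ := by group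
        _ = t := by rw [h3, hg]

variable {G : Type*} [Group G] {J : G} {T : Subgroup G}

/-- The order of a subgroup of `C(J)` containing `J`. -/
theorem card_eq [Finite G] (h : Hyp J T) {Q : Subgroup G} (hJ : J ∈ Q) (hQ : Q ≤ centralizer ({J} : Set G)) :
    Nat.card Q = 2 * Nat.card (Q ⊓ T : Subgroup G) := by
  have hb : Function.Bijective (fun p : Bool × (Q ⊓ T : Subgroup G) =>
      (⟨(if p.1 then J * p.2 else p.2 : G), by
        split_ifs
        · exact mul_mem hJ p.2.2.1
        · exact p.2.2.1⟩ : Q)) := by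
    constructor
    · rintro ⟨a, s⟩ ⟨b, t⟩ hab
      have h1 := congrArg Subtype.val hab
      simp only at h1
      have key : ∀ s t : (Q ⊓ T : Subgroup G), (J * s : G) ≠ t := by
        intro s t h2
        apply h.not_mem
        have : J = t * (s : G)⁻¹ := by rw [← h2]; group
        rw [this]
        exact mul_mem t.2.2 (inv_mem s.2.2)
      cases a <;> cases b
      · simp at h1; rw [h1]
      · simp at h1; exact absurd h1.symm (key t s)
      · simp at h1; exact absurd h1 (key s t)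
      · simp at h1; rw [h1]
    · rintro ⟨x, hx⟩
      obtain ⟨t, ht, rfl | rfl⟩ := h.exists_eq (hQ hx)
      · exact ⟨(false, ⟨x, hx, ht⟩), by simp⟩
      · refine ⟨(true, ⟨t, ?_, ht⟩), by simp⟩
        have h3 : t = J * (J * t) := by rw [← mul_assoc, h.sq, one_mul]
        rw [h3]
        exact mul_mem hJ hx
  rw [← Nat.card_congr (Equiv.ofBijective _ hb), Nat.card_prod]
  simp

/-- Conjugates of the situation. -/
theorem hyp_conj (h : Hyp J T) (g : G) : Hyp (g * J * g⁻¹) (T.map (MulAut.conj g).toMonoidHom) := by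
  have hz : zpowers (g * J * g⁻¹) = (zpowers J).map (MulAut.conj g).toMonoidHom := by
    rw [MonoidHom.map_zpowers]; rfl
  have hc : centralizer ({g * J * g⁻¹} : Set G) =
      (centralizer ({J} : Set G)).map (MulAut.conj g).toMonoidHom := by
    ext x
    rw [mem_map_equiv_conj, mem_centralizer_singleton_iff, mem_centralizer_singleton_iff]
    constructor
    · intro hx
      calc g⁻¹ * x * g * J = g⁻¹ * (x * (g * J * g⁻¹)) * g := by group
        _ = J * (g⁻¹ * x * g) := by rw [hx]; group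
    · intro hx
      calc x * (g * J * g⁻¹) = g * (g⁻¹ * x * g * J) * g⁻¹ := by group
        _ = g * J * g⁻¹ * x := by rw [hx]; group
  refine ⟨?_, ?_, ?_, ?_, ?_, ?_⟩
  · have : g * J * g⁻¹ = MulAut.conj g J := rfl
    rw [this, MulEquiv.orderOf_eq]
    exact h.ord
  · rw [hz, hc]; exact map_mono h.prod.1
  · rw [hc]; exact map_mono h.prod.2.1
  · rw [hz]
    rintro _ ⟨a, ha, rfl⟩ _ ⟨b, hb, rfl⟩
    rw [← map_mul, ← map_mul, h.prod.2.2.1 a ha b hb]
  · rw [hz, ← map_inf _ _ _ (MulAut.conj g).injective, h.prod.2.2.2.1, Subgroup.map_bot]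
  · rw [hz, hc, ← Subgroup.map_sup, h.prod.2.2.2.2]
where
  mem_map_equiv_conj {g x : G} {H : Subgroup G} :
      x ∈ H.map (MulAut.conj g).toMonoidHom ↔ g⁻¹ * x * g ∈ H := by
    constructor
    · rintro ⟨y, hy, rfl⟩
      show g⁻¹ * (g * y * g⁻¹) * g ∈ H
      have : g⁻¹ * (g * y * g⁻¹) * g = y := by group
      rwa [this]
    · intro hx
      exact ⟨_, hx, by show g * (g⁻¹ * x * g) * g⁻¹ = x; group⟩

/-- The situation with `T ≅ A₄` or `A₅`. -/
structure Small (J : G) (T : Subgroup G) (m : ℕ) : Prop extends Hyp J T where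
  cases : m = 4 ∨ m = 5
  iso : Nonempty (T ≃* alternatingGroup (Fin m))

namespace Small

variable {m : ℕ}

theorem four (h : Small J T m) {t : G} (ht : t ∈ T) (h4 : t * t * (t * t) = 1) : t * t = 1 := by
  obtain ⟨e⟩ := h.iso
  have key : ∀ z : alternatingGroup (Fin m), z * z * (z * z) = 1 → z * z = 1 := by
    intro z hz
    apply Subtype.ext
    have h1 : ((z : Perm (Fin m)) * z * (z * z)) = 1 := congrArg Subtype.val hz
    have h2 : sign (z : Perm (Fin m)) = 1 := mem_alternatingGroup.1 z.2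
    rcases h.cases with rfl | rfl
    · exact exp4 _ h2 h1
    · exact exp5 _ h2 h1
  have h1 : (⟨t, ht⟩ : T) * ⟨t, ht⟩ = 1 := by
    apply e.injective
    rw [map_mul, map_one]
    apply key
    rw [← map_mul, ← map_mul]
    have : (⟨t, ht⟩ : T) * ⟨t, ht⟩ * (⟨t, ht⟩ * ⟨t, ht⟩) = 1 := Subtype.ext h4
    rw [this, map_one]
  exact congrArg Subtype.val h1

theorem conj (h : Small J T m) {s t : G} (hs : s ∈ T) (ht : t ∈ T) (hs2 : s * s = 1) (hs1 : s ≠ 1)
    (ht2 : t * t = 1) (ht1 : t ≠ 1) : ∃ g ∈ T, g * s * g⁻¹ = t := by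
  obtain ⟨e⟩ := h.iso
  have hm : m ≤ 5 := by rcases h.cases with rfl | rfl <;> omega
  obtain ⟨g, hg⟩ := alt_conj hm (e ⟨s, hs⟩) (e ⟨t, ht⟩)
    (by rw [← map_mul, show (⟨s, hs⟩ : T) * ⟨s, hs⟩ = 1 from Subtype.ext hs2, map_one])
    (by
      intro h1
      apply hs1
      exact congrArg Subtype.val ((MulEquiv.map_eq_one_iff e).1 h1))
    (by rw [← map_mul, show (⟨t, ht⟩ : T) * ⟨t, ht⟩ = 1 from Subtype.ext ht2, map_one])
    (by
      intro h1
      apply ht1
      exact congrArg Subtype.val ((MulEquiv.map_eq_one_iff e).1 h1))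
  refine ⟨e.symm g, (e.symm g).2, ?_⟩
  have h1 : e.symm g * ⟨s, hs⟩ * (e.symm g)⁻¹ = ⟨t, ht⟩ := by
    apply e.injective
    rw [map_mul, map_mul, map_inv, MulEquiv.apply_symm_apply, hg]
  exact congrArg Subtype.val h1

theorem card_T (h : Small J T m) : (m = 4 ∧ Nat.card T = 12) ∨ (m = 5 ∧ Nat.card T = 60) := by
  obtain ⟨e⟩ := h.iso
  rcases h.cases with rfl | rfl
  · left
    refine ⟨rfl, ?_⟩
    rw [Nat.card_congr e.toEquiv]
    have := two_mul_card_alternatingGroup (α := Fin 4)
    rw [Fintype.card_perm, Fintype.card_fin] at this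
    rw [Nat.card_eq_fintype_card]
    have h2 : Nat.factorial 4 = 24 := by decide
    omega
  · right
    refine ⟨rfl, ?_⟩
    rw [Nat.card_congr e.toEquiv]
    have := two_mul_card_alternatingGroup (α := Fin 5)
    rw [Fintype.card_perm, Fintype.card_fin] at this
    rw [Nat.card_eq_fintype_card]
    have h2 : Nat.factorial 5 = 120 := by decide
    omega

/-- 2-elements of `C(J)` square to 1. -/
theorem sq_of_cent (h : Small J T m) {x : G} (hx : x ∈ centralizer ({J} : Set G))
    (h4 : x * x * (x * x) = 1) : x * x = 1 := by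
  obtain ⟨t, ht, rfl | rfl⟩ := h.toHyp.exists_eq hx
  · exact h.four ht h4
  · have hJt := h.toHyp.comm ht
    have h1 : J * t * (J * t) = t * t := by
      calc J * t * (J * t) = J * (t * J) * t := by group
        _ = J * (J * t) * t := by rw [hJt]
        _ = (J * J) * (t * t) := by group
        _ = t * t := by rw [h.toHyp.sq, one_mul]
    rw [h1] at h4 ⊢
    exact h.four ht h4

variable [Finite G]

omit [Finite G] in
/-- Data of a Sylow subgroup containing `J` in its centre. -/
theorem sylow_sq (h : Small J T m) (P : Sylow 2 G) (hP : ∀ x ∈ P, x * J = J * x) {x : G}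
    (hx : x ∈ (P : Subgroup G)) : x * x = 1 := by
  have h2 : Fact (Nat.Prime 2) := ⟨Nat.prime_two⟩
  obtain ⟨k, hk⟩ := (IsPGroup.iff_orderOf.1 P.isPGroup') ⟨x, hx⟩
  rw [← Subgroup.orderOf_coe] at hk
  simp only at hk
  have hk1 : k ≤ 1 := by
    by_contra hcon
    have hy : orderOf (x ^ (2 ^ (k - 2))) = 4 := by
      rw [orderOf_pow_of_dvd (by positivity) (by rw [hk]; exact pow_dvd_pow 2 (by omega)), hk,
        Nat.pow_div (by omega) (by norm_num)]
      have : k - (k - 2) = 2 := by omega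
      rw [this]
    set y := x ^ (2 ^ (k - 2)) with hydef
    have hyP : y ∈ (P : Subgroup G) := pow_mem hx _
    have hyC : y ∈ centralizer ({J} : Set G) := by
      rw [mem_centralizer_singleton_iff]
      exact hP y hyP
    have h4 : y * y * (y * y) = 1 := by
      have : y ^ 4 = 1 := by rw [← hy, pow_orderOf_eq_one]
      rw [← this]
      simp only [pow_succ, pow_zero, one_mul, mul_assoc]
    have h5 := h.sq_of_cent hyC h4
    have h6 : orderOf y ∣ 2 := orderOf_dvd_of_pow_eq_one (by rw [pow_two]; exact h5)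
    rw [hy] at h6
    omega
  have h1 : orderOf x ∣ 2 := by
    rw [hk]
    exact (pow_dvd_pow 2 hk1).trans (by norm_num)
  rw [← pow_two]
  exact orderOf_dvd_iff_pow_eq_one.1 h1

theorem sylow_card (h : Small J T m) (P : Sylow 2 G) (hP : ∀ x ∈ P, x * J = J * x) :
    Nat.card (P : Subgroup G) = 8 := by
  have h2 : Fact (Nat.Prime 2) := ⟨Nat.prime_two⟩
  have hle : (P : Subgroup G) ≤ centralizer ({J} : Set G) := fun x hx =>
    mem_centralizer_singleton_iff.2 (hP x hx)
  obtain ⟨k, hk⟩ := IsPGroup.iff_card.1 P.isPGroup'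
  have h3 : (P : Subgroup G).relIndex (centralizer ({J} : Set G)) * Nat.card (P : Subgroup G) =
      Nat.card (centralizer ({J} : Set G)) := by
    have h4 := ((P : Subgroup G).subgroupOf (centralizer ({J} : Set G))).card_mul_index
    rw [Nat.card_congr (subgroupOfEquivOfLe hle).toEquiv] at h4
    rw [mul_comm]; exact h4
  have h5 : ¬ 2 ∣ (P : Subgroup G).relIndex (centralizer ({J} : Set G)) := by
    intro h6
    have h7 : ¬ 2 ∣ (P : Subgroup G).index := P.not_dvd_index
    exact h7 (h6.trans (relIndex_dvd_index_of_le hle))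
  rw [h.toHyp.card_cent, hk] at h3
  set r := (P : Subgroup G).relIndex (centralizer ({J} : Set G)) with hr
  rw [hk]
  have hT : 2 * Nat.card T = 24 ∨ 2 * Nat.card T = 120 := by
    rcases h.card_T with ⟨-, h8⟩ | ⟨-, h8⟩ <;> rw [h8] <;> simp
  have hk7 : 2 ^ k ≤ 120 := by
    have hr0 : 0 < r := Nat.pos_of_ne_zero (by rintro h9; rw [h9, zero_mul] at h3; omega)
    rcases hT with h8 | h8 <;> nlinarith
  have hk8 : k < 7 := by
    by_contra hcon
    have : 2 ^ 7 ≤ 2 ^ k := Nat.pow_le_pow_right (by norm_num) (by omega)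
    omega
  interval_cases k <;> omega

/-- `Con J x`: `x` is a conjugate of `J`. -/
def Con (J x : G) : Prop := ∃ g : G, g * J * g⁻¹ = x

omit [Finite G] in
theorem con_conj {x : G} (h : Con J x) (g : G) : Con J (g * x * g⁻¹) := by
  obtain ⟨a, rfl⟩ := h
  exact ⟨g * a, by group⟩

/-- All involutions of the Sylow subgroup are conjugate. -/
theorem con_sylow (h : Small J T m) (P : Sylow 2 G) (hJP : J ∈ (P : Subgroup G)) (hP : ∀ x ∈ P, x * J = J * x)
    {g₀ : G} (hg₀ : g₀ * J * g₀⁻¹ ∈ T) {x : G} (hx : x ∈ (P : Subgroup G)) (hx1 : x ≠ 1) : Con J x := by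
  have hsq : ∀ y ∈ (P : Subgroup G), y * y = 1 := fun y hy => h.sylow_sq P hP hy
  have hcomm : ∀ y ∈ (P : Subgroup G), ∀ z ∈ (P : Subgroup G), y * z = z * y := by
    intro y hy z hz
    have h1 := hsq (y * z) (mul_mem hy hz)
    calc y * z = (y * z)⁻¹ := (inv_eq_of_mul_eq_one_left h1).symm
      _ = z⁻¹ * y⁻¹ := mul_inv_rev _ _
      _ = z * y := by rw [inv_eq_of_mul_eq_one_left (hsq y hy), inv_eq_of_mul_eq_one_left (hsq z hz)]
  have hle : (P : Subgroup G) ≤ centralizer ({J} : Set G) := fun y hy =>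
    mem_centralizer_singleton_iff.2 (hP y hy)
  -- involutions of `T`
  have hT : ∀ t ∈ T, t * t = 1 → t ≠ 1 → Con J t := by
    intro t ht ht2 ht1
    set z := g₀ * J * g₀⁻¹ with hz
    have hz2 : z * z = 1 := by
      calc g₀ * J * g₀⁻¹ * (g₀ * J * g₀⁻¹) = g₀ * (J * J) * g₀⁻¹ := by group
        _ = 1 := by rw [h.toHyp.sq]; group
    have hz1 : z ≠ 1 := by
      intro h1
      apply h.toHyp.ne_one
      calc J = g₀⁻¹ * z * g₀ := by rw [hz]; group
        _ = 1 := by rw [h1]; group
    obtain ⟨g, -, hg⟩ := h.conj hg₀ ht hz2 hz1 ht2 ht1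
    rw [← hg]
    exact con_conj ⟨g₀, rfl⟩ g
  -- a nontrivial element of `V = P ∩ T`
  have hPc := h.sylow_card P hP
  have hVc : Nat.card ((P : Subgroup G) ⊓ T : Subgroup G) = 4 := by
    have := card_eq h.toHyp hJP hle
    omega
  obtain ⟨v, hv, hv1⟩ : ∃ v ∈ (P : Subgroup G) ⊓ T, v ≠ 1 := by
    by_contra hcon
    push Not at hcon
    have : (P : Subgroup G) ⊓ T = ⊥ := (Subgroup.eq_bot_iff_forall _).2 hcon
    rw [this, Subgroup.card_bot] at hVc
    omega
  obtain ⟨g, hg⟩ := hT v hv.2 (hsq v hv.1) hv1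
  have h' := hyp_conj h.toHyp g
  rw [hg] at h'
  set T' := T.map (MulAut.conj g).toMonoidHom with hT'
  have hlev : (P : Subgroup G) ≤ centralizer ({v} : Set G) := fun y hy =>
    mem_centralizer_singleton_iff.2 (hcomm y hy v hv.1)
  have hV'c : Nat.card ((P : Subgroup G) ⊓ T' : Subgroup G) = 4 := by
    have := card_eq h' hv.1 hlev
    omega
  have hV' : ∀ w ∈ (P : Subgroup G) ⊓ T', w ≠ 1 → Con J w := by
    rintro w ⟨hwP, ⟨t, ht, rfl⟩⟩ hw1
    have h3 : (MulAut.conj g).toMonoidHom t = g * t * g⁻¹ := rfl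
    rw [h3] at hw1 hwP ⊢
    apply con_conj
    apply hT t ht
    · have h4 := hsq _ hwP
      have h5 : g * (t * t) * g⁻¹ = 1 := by
        calc g * (t * t) * g⁻¹ = g * t * g⁻¹ * (g * t * g⁻¹) := by group
          _ = 1 := h4
      calc t * t = g⁻¹ * (g * (t * t) * g⁻¹) * g := by group
        _ = 1 := by rw [h5]; group
    · rintro rfl
      apply hw1; group
  by_contra hxK
  -- no `J * b` is a conjugate
  obtain ⟨b, hbT, hb⟩ := h.toHyp.exists_eq (hle hx)
  have hxb : x = J * b := by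
    rcases hb with rfl | rfl
    · exact absurd (hT x hbT (hsq x hx) hx1) hxK
    · rfl
  have hbP : b ∈ (P : Subgroup G) := by
    have : b = J * x := by rw [hxb, ← mul_assoc, h.toHyp.sq, one_mul]
    rw [this]; exact mul_mem hJP hx
  have hb1 : b ≠ 1 := by
    rintro rfl
    rw [mul_one] at hxb
    apply hxK
    rw [hxb]
    exact ⟨1, by group⟩
  have hno : ∀ c ∈ T, c ∈ (P : Subgroup G) → c ≠ 1 → ¬ Con J (J * c) := by
    intro c hc hcP hc1 hK
    obtain ⟨s, hs, hsc⟩ := h.conj hc hbT (hsq c hcP) hc1 (hsq b hbP) hb1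
    apply hxK
    have h3 : x = s * (J * c) * s⁻¹ := by
      rw [hxb, ← hsc]
      calc J * (s * c * s⁻¹) = J * s * c * s⁻¹ := by group
        _ = s * (J * c) * s⁻¹ := by rw [h.toHyp.comm hs]; group
    rw [h3]
    exact con_conj hK s
  have hcases : ∀ w ∈ (P : Subgroup G) ⊓ T', w ∈ T ∨ w = J := by
    intro w hw
    by_cases hw1 : w = 1
    · left; rw [hw1]; exact one_mem _
    obtain ⟨t, ht, rfl | rfl⟩ := h.toHyp.exists_eq (hle hw.1)
    · exact Or.inl ht
    · right
      by_cases ht1 : t = 1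
      · rw [ht1, mul_one]
      · exfalso
        have htP : t ∈ (P : Subgroup G) := by
          have : t = J * (J * t) := by rw [← mul_assoc, h.toHyp.sq, one_mul]
          rw [this]; exact mul_mem hJP hw.1
        exact hno t ht htP ht1 (hV' _ hw hw1)
  have hJV' : J ∉ (P : Subgroup G) ⊓ T' := by
    intro hJV
    obtain ⟨w, hw, hw1, hwJ⟩ : ∃ w ∈ (P : Subgroup G) ⊓ T', w ≠ 1 ∧ w ≠ J := by
      by_contra hcon
      push Not at hcon
      have hle2 : (P : Subgroup G) ⊓ T' ≤ zpowers J := by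
        intro w hw
        by_cases hw1 : w = 1
        · rw [hw1]; exact one_mem _
        · rw [hcon w hw hw1]; exact mem_zpowers J
      have := Subgroup.card_le_of_le hle2
      rw [Nat.card_zpowers, h.toHyp.ord, hV'c] at this
      omega
    have hwT : w ∈ T := (hcases w hw).resolve_right hwJ
    have hJw : J * w ∈ (P : Subgroup G) ⊓ T' := mul_mem hJV hw
    apply hno w hwT hw.1 hw1
    apply hV' _ hJw
    intro h5
    apply hwJ
    have : w = J⁻¹ := eq_inv_of_mul_eq_one_right h5
    rw [this, h.toHyp.inv]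
  have hVV : (P : Subgroup G) ⊓ T' ≤ (P : Subgroup G) ⊓ T := by
    intro w hw
    refine ⟨hw.1, (hcases w hw).resolve_right ?_⟩
    rintro rfl
    exact hJV' hw
  have heq : (P : Subgroup G) ⊓ T' = (P : Subgroup G) ⊓ T :=
    Subgroup.eq_of_le_of_card_ge hVV (by rw [hVc, hV'c])
  apply h'.not_mem
  have : v ∈ (P : Subgroup G) ⊓ T' := by rw [heq]; exact hv
  exact this.2

/-- All involutions are conjugate. -/
theorem con_all (h : Small J T m) (hJ : IsTwoCentralInvolution J)
    (h2 : ∀ N : Subgroup G, N.Normal → N.index ≠ 2) {x : G} (hx : x * x = 1) (hx1 : x ≠ 1) : Con J x := by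
  have hf2 : Fact (Nat.Prime 2) := ⟨Nat.prime_two⟩
  obtain ⟨g₀, hg₀⟩ := h.toHyp.exists_conj_mem hJ h2
  obtain ⟨-, P, hJP, hP⟩ := hJ
  have hz : IsPGroup 2 (zpowers x) := by
    apply IsPGroup.of_card (n := 1)
    rw [Nat.card_zpowers, pow_one]
    exact orderOf_eq_prime (by rw [pow_two]; exact hx) hx1
  obtain ⟨Q, hQ⟩ := hz.exists_le_sylow
  obtain ⟨g, hg⟩ := MulAction.exists_smul_eq G Q P
  have h3 : g * x * g⁻¹ ∈ (P : Subgroup G) := by
    rw [← hg, Sylow.coe_subgroup_smul]
    exact Subgroup.smul_mem_pointwise_smul x (MulAut.conj g) _ (hQ (mem_zpowers x))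
  have h4 : Con J (g * x * g⁻¹) := by
    apply h.con_sylow P hJP hP hg₀ h3
    intro h5
    apply hx1
    calc x = g⁻¹ * (g * x * g⁻¹) * g := by group
      _ = 1 := by rw [h5]; group
  have h5 := con_conj h4 g⁻¹
  have h6 : g⁻¹ * (g * x * g⁻¹) * g⁻¹⁻¹ = x := by group
  rwa [h6] at h5

end Small

end Cfsg.Agent.H478.InvAlt
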