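import Mathlib
import Cfsg.Agent.H478.InvAlt
import Cfsg.Agent.Lib.ModFour
import Cfsg.Agent.S0205

/-!
# Involutions whose centralizer is `⟨J⟩ × T`, `T ≅ A₄` or `A₅`: the solvable radical is trivial
-/

set_option autoImplicit false

namespace Cfsg.Agent.H478.InvAlt

open Cfsg Subgroup Equiv Equiv.Perm
open Cfsg.Agent.H478.InvProd

theorem comm4 : ∀ x : Perm (Fin 4), sign x = 1 → x * x ≠ 1 →
    ∃ b : Perm (Fin 4), sign b = 1 ∧ b * x * b⁻¹ * x⁻¹ ≠ 1 ∧
      b * x * b⁻¹ * x⁻¹ * (b * x * b⁻¹ * x⁻¹) = 1 := by decide +kernel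

variable {G : Type*} [Group G] {J : G} {T : Subgroup G}

namespace Small

variable {m : ℕ}

theorem exists_comm (h : Small J T m) (hm : m = 4) {x : G} (hx : x ∈ T) (hx2 : x * x ≠ 1) :
    ∃ b ∈ T, b * x * b⁻¹ * x⁻¹ ≠ 1 ∧ b * x * b⁻¹ * x⁻¹ * (b * x * b⁻¹ * x⁻¹) = 1 := by
  obtain ⟨e⟩ := h.iso
  have key : ∀ x : alternatingGroup (Fin m), x * x ≠ 1 → ∃ b : alternatingGroup (Fin m),
      b * x * b⁻¹ * x⁻¹ ≠ 1 ∧ b * x * b⁻¹ * x⁻¹ * (b * x * b⁻¹ * x⁻¹) = 1 := by
    intro x hx
    have h1 : (x : Perm (Fin m)) * x ≠ 1 := fun h1 => hx (Subtype.ext h1)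
    have h2 : sign (x : Perm (Fin m)) = 1 := mem_alternatingGroup.1 x.2
    have h3 : ∃ b : Perm (Fin m), sign b = 1 ∧ b * x * b⁻¹ * (x : Perm (Fin m))⁻¹ ≠ 1 ∧
        b * x * b⁻¹ * (x : Perm (Fin m))⁻¹ * (b * x * b⁻¹ * (x : Perm (Fin m))⁻¹) = 1 := by
      subst hm
      exact comm4 _ h2 h1
    obtain ⟨b, hb, hb1, hb2⟩ := h3
    exact ⟨⟨b, mem_alternatingGroup.2 hb⟩, fun h4 => hb1 (congrArg Subtype.val h4), Subtype.ext hb2⟩
  obtain ⟨b, hb1, hb2⟩ := key (e ⟨x, hx⟩) (by
    intro h1
    apply hx2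
    rw [← map_mul] at h1
    exact congrArg Subtype.val ((MulEquiv.map_eq_one_iff e).1 h1))
  refine ⟨e.symm b, (e.symm b).2, ?_, ?_⟩
  · intro h1
    apply hb1
    have h2 : e.symm b * ⟨x, hx⟩ * (e.symm b)⁻¹ * (⟨x, hx⟩ : T)⁻¹ = 1 := Subtype.ext h1
    have h3 := congrArg e h2
    rwa [map_mul, map_mul, map_mul, map_inv, map_inv, MulEquiv.apply_symm_apply, map_one] at h3
  · have h2 : e.symm b * ⟨x, hx⟩ * (e.symm b)⁻¹ * (⟨x, hx⟩ : T)⁻¹ *
        (e.symm b * ⟨x, hx⟩ * (e.symm b)⁻¹ * (⟨x, hx⟩ : T)⁻¹) = 1 := by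
      apply e.injective
      rw [map_mul, map_mul, map_mul, map_mul, map_inv, map_inv, MulEquiv.apply_symm_apply, map_one]
      exact hb2
    exact congrArg Subtype.val h2

variable [Finite G]

/-- The order of `G` in terms of the number of involutions. -/
theorem card_G (h : Small J T m) (hJ : IsTwoCentralInvolution J)
    (h2 : ∀ N : Subgroup G, N.Normal → N.index ≠ 2) :
    Nat.card G = Nat.card {x : G // x * x = 1 ∧ x ≠ 1} * Nat.card (centralizer ({J} : Set G)) := by
  have h3 : Nat.card {x : G // x * x = 1 ∧ x ≠ 1} = Nat.card {y : G // IsConj J y} := by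
    apply Nat.card_congr
    refine Equiv.subtypeEquivRight fun x => ⟨fun hx => ?_, fun hx => ?_⟩
    · obtain ⟨g, hg⟩ := h.con_all hJ h2 hx.1 hx.2
      exact isConj_iff.2 ⟨g, hg⟩
    · obtain ⟨g, hg⟩ := isConj_iff.1 hx
      rw [← hg]
      refine ⟨?_, fun h4 => h.toHyp.ne_one ?_⟩
      · calc g * J * g⁻¹ * (g * J * g⁻¹) = g * (J * J) * g⁻¹ := by group
          _ = 1 := by rw [h.toHyp.sq]; group
      · calc J = g⁻¹ * (g * J * g⁻¹) * g := by group
          _ = 1 := by rw [h4]; group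
  rw [h3, Cfsg.Agent.Lib.ModFour.card_isConj, mul_comm, Subgroup.card_mul_index]

/-- **No nontrivial solvable normal subgroups.** -/
theorem no_solvable (h : Small J T m) (hJ : IsTwoCentralInvolution J)
    (h2 : ∀ N : Subgroup G, N.Normal → N.index ≠ 2) (hns : ¬ Group.IsSolvable G)
    (N : Subgroup G) (hN : N.Normal) (hs : Group.IsSolvable N) : N = ⊥ := by
  by_contra hne
  have hnt : Nontrivial N := (Subgroup.nontrivial_iff_ne_bot N).2 hne
  obtain ⟨p, hp, A, hA, hAc, hAp, hAne⟩ :=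
    Cfsg.Agent.Lib.SolvableMinNormal.exists_characteristic_pgroup (G := N)
  have hfp : Fact p.Prime := ⟨hp⟩
  set M : Subgroup G := A.map N.subtype with hM
  have hMn : M.Normal := ConjAct.normal_of_characteristic_of_normal
  have hMne : M ≠ ⊥ := by
    intro h1
    rw [hM, Subgroup.map_eq_bot_iff_of_injective _ N.subtype_injective] at h1
    exact hAne h1
  have hMp : IsPGroup p M := hAp.map _
  have hMc : ∀ a ∈ M, ∀ b ∈ M, a * b = b * a := by
    rintro _ ⟨a, ha, rfl⟩ _ ⟨b, hb, rfl⟩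
    have := hAc.1.comm ⟨a, ha⟩ ⟨b, hb⟩
    rw [← map_mul, ← map_mul]
    exact congrArg N.subtype (congrArg Subtype.val this)
  obtain ⟨g₀, hg₀⟩ := h.toHyp.exists_conj_mem hJ h2
  set v := g₀ * J * g₀⁻¹ with hv
  have hv2 : v * v = 1 := by
    calc g₀ * J * g₀⁻¹ * (g₀ * J * g₀⁻¹) = g₀ * (J * J) * g₀⁻¹ := by group
      _ = 1 := by rw [h.toHyp.sq]; group
  have hv1 : v ≠ 1 := by
    intro h1
    apply h.toHyp.ne_one
    calc J = g₀⁻¹ * v * g₀ := by rw [hv]; group
      _ = 1 := by rw [h1]; group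
  have hall : ∀ w : G, w * w = 1 → w ≠ 1 → Con J w := fun w hw hw1 => h.con_all hJ h2 hw hw1
  by_cases hp2 : p = 2
  · subst hp2
    -- `M` contains all involutions
    have hcard : Nat.card M ≠ 1 := by
      intro h1
      exact hMne (Subgroup.eq_bot_of_card_eq M h1)
    obtain ⟨k, hk⟩ := IsPGroup.iff_card.1 hMp
    have hk0 : k ≠ 0 := by
      rintro rfl
      exact hcard (by rw [hk, pow_zero])
    obtain ⟨w, hw⟩ := exists_prime_orderOf_dvd_card' (G := M) 2 (by rw [hk]; exact dvd_pow_self 2 hk0)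
    have hw2 : (w : G) * w = 1 := by
      have h1 : (w : M) ^ 2 = 1 := by rw [← hw, pow_orderOf_eq_one]
      rw [← pow_two, ← Subgroup.coe_pow, h1]; rfl
    have hw1 : (w : G) ≠ 1 := by
      intro h1
      have h3 : w = 1 := Subtype.ext h1
      rw [h3, orderOf_one] at hw
      omega
    have hallM : ∀ u : G, u * u = 1 → u ∈ M := by
      intro u hu
      by_cases hu1 : u = 1
      · rw [hu1]; exact one_mem _
      obtain ⟨a, ha⟩ := hall u hu hu1
      obtain ⟨b, hb⟩ := hall w hw2 hw1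
      have h3 : u = (a * b⁻¹) * w * (a * b⁻¹)⁻¹ := by
        rw [← ha, ← hb]; group
      rw [h3]
      exact hMn.conj_mem _ w.2 _
    obtain ⟨hJ2, P, hJP, hP⟩ := hJ
    have hPM : (P : Subgroup G) ≤ M := fun x hx => hallM x (h.sylow_sq P hP hx)
    have hMP : M = (P : Subgroup G) := P.is_maximal' hMp hPM
    have hPc := h.sylow_card P hP
    have hle : (P : Subgroup G) ≤ centralizer ({J} : Set G) := fun y hy =>
      mem_centralizer_singleton_iff.2 (hP y hy)
    have hVc : Nat.card ((P : Subgroup G) ⊓ T : Subgroup G) = 4 := by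
      have := card_eq h.toHyp hJP hle
      omega
    rcases h.card_T with ⟨hm4, hTc⟩ | ⟨hm5, hTc⟩
    · -- `|G| = 168`
      apply hns
      have hG := h.card_G ⟨hJ2, P, hJP, hP⟩ h2
      rw [h.toHyp.card_cent, hTc] at hG
      have hinv : Nat.card {x : G // x * x = 1 ∧ x ≠ 1} = 7 := by
        have e1 : {x : G // x * x = 1 ∧ x ≠ 1} ≃ {x : M // x ≠ 1} :=
          { toFun := fun x => ⟨⟨x, hallM x x.2.1⟩, fun h1 => x.2.2 (congrArg Subtype.val h1)⟩
            invFun := fun x => ⟨x.1, by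
              refine ⟨?_, fun h1 => x.2 (Subtype.ext h1)⟩
              have h3 : (x.1 : G) ∈ (P : Subgroup G) := hMP ▸ x.1.2
              exact h.sylow_sq P hP h3⟩
            left_inv := fun x => rfl
            right_inv := fun x => rfl }
        rw [Nat.card_congr e1]
        have hft : Fintype M := Fintype.ofFinite M
        classical
        rw [Nat.card_eq_fintype_card, Fintype.card_subtype_compl, Fintype.card_subtype_eq,
          ← Nat.card_eq_fintype_card, hMP, hPc]
      rw [hinv] at hG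
      have hidx : M.index = 21 := by
        have h3 := M.card_mul_index
        rw [hMP, hPc, hG] at h3
        rw [hMP]
        omega
      rw [Group.isSolvable_iff_subgroup_quotient M]
      refine ⟨?_, ?_⟩
      · exact Group.isSolvable_of_comm (fun a b => Subtype.ext (hMc a a.2 b b.2))
      · apply Cfsg.Agent.S0205.result
        rw [← Subgroup.index_eq_card, hidx]
        decide
    · -- `T` is simple
      subst hm5
      obtain ⟨e⟩ := h.iso
      have hTs : IsSimpleGroup T := by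
        have : IsSimpleGroup (alternatingGroup (Fin 5)) := alternatingGroup.isSimpleGroup (by simp)
        exact e.isSimpleGroup
      have hn : (M.subgroupOf T).Normal := inferInstance
      rcases hn.eq_bot_or_eq_top with h3 | h3
      · have h4 : M ⊓ T = ⊥ := by
          rw [Subgroup.subgroupOf_eq_bot, disjoint_iff] at h3
          exact h3
        rw [← hMP, h4, Subgroup.card_bot] at hVc
        omega
      · rw [Subgroup.subgroupOf_eq_top] at h3
        have h4 := Subgroup.card_dvd_of_le h3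
        rw [hTc, hMP, hPc] at h4
        omega
  · -- odd `p`: `J` inverts `M`
    have hodd : Odd (Nat.card M) := by
      obtain ⟨k, hk⟩ := IsPGroup.iff_card.1 hMp
      rw [hk]
      exact (hp.odd_of_ne_two hp2).pow
    have hno2 : ∀ y ∈ M, y * y = 1 → y = 1 := by
      intro y hy hy2
      have h3 : orderOf y ∣ 2 := orderOf_dvd_of_pow_eq_one (by rw [pow_two]; exact hy2)
      have h4 : orderOf y ∣ Nat.card M := Subgroup.orderOf_dvd_natCard M hy
      have h5 : orderOf y ∣ 1 := by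
        have : Nat.Coprime 2 (Nat.card M) := Nat.coprime_two_left.2 hodd
        rw [← this]
        exact Nat.dvd_gcd h3 h4
      exact orderOf_eq_one_iff.1 (Nat.dvd_one.1 h5)
    have hfix : M ⊓ centralizer ({J} : Set G) = ⊥ := by
      rw [Subgroup.eq_bot_iff_forall]
      rintro x ⟨hxM, hxC⟩
      have hxT : x ∈ T := by
        obtain ⟨t, ht, rfl | rfl⟩ := h.toHyp.exists_eq hxC
        · exact ht
        · exfalso
          have h3 : Odd (orderOf (J * t)) := by
            have h4 : orderOf (J * t) ∣ Nat.card M := Subgroup.orderOf_dvd_natCard M hxM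
            exact hodd.of_dvd_nat h4
          obtain ⟨n, hn⟩ := h3
          have hc : Commute J t := h.toHyp.comm ht
          have h4 : (J * t) ^ (2 * n + 1) = 1 := by rw [← hn, pow_orderOf_eq_one]
          rw [hc.mul_pow, pow_succ J, pow_mul J, pow_two, h.toHyp.sq, one_pow, one_mul] at h4
          apply h.toHyp.not_mem
          rw [eq_inv_of_mul_eq_one_left h4]
          exact inv_mem (pow_mem ht _)
      by_contra hx1
      have hx2 : x * x ≠ 1 := fun h3 => hx1 (hno2 x hxM h3)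
      rcases h.card_T with ⟨hm4, hTc⟩ | ⟨hm5, hTc⟩
      · obtain ⟨b, hb, hb1, hb2⟩ := h.exists_comm hm4 hxT hx2
        apply hb1
        apply hno2 _ _ hb2
        exact mul_mem (hMn.conj_mem x hxM b) (inv_mem hxM)
      · subst hm5
        obtain ⟨e⟩ := h.iso
        have hTs : IsSimpleGroup T := by
          have : IsSimpleGroup (alternatingGroup (Fin 5)) := alternatingGroup.isSimpleGroup (by simp)
          exact e.isSimpleGroup
        have hn : (M.subgroupOf T).Normal := inferInstance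
        rcases hn.eq_bot_or_eq_top with h3 | h3
        · apply hx1
          rw [Subgroup.subgroupOf_eq_bot, disjoint_iff] at h3
          have h4 : x ∈ M ⊓ T := ⟨hxM, hxT⟩
          rwa [h3, mem_bot] at h4
        · rw [Subgroup.subgroupOf_eq_top] at h3
          have h4 := Subgroup.card_dvd_of_le h3
          rw [hTc] at h4
          have h5 : 2 ∣ Nat.card M := (by norm_num : 2 ∣ 60).trans h4
          exact (Nat.not_even_iff_odd.2 hodd) (even_iff_two_dvd.2 h5)
    have hinvJ : ∀ y ∈ M, J * y * J⁻¹ = y⁻¹ := by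
      intro y hy
      refine Cfsg.Agent.Classification.TypeB.Basic.inverts_of_fixedPointFree (K := M) (w := J)
        ⟨h.toHyp.sq, h.toHyp.ne_one⟩ ?_ hfix hy
      rw [Subgroup.normalizer_eq_top_iff.2 hMn]
      exact mem_top _
    have hinv : ∀ w : G, w * w = 1 → w ≠ 1 → ∀ y ∈ M, w * y * w⁻¹ = y⁻¹ := by
      intro w hw hw1 y hy
      obtain ⟨g, rfl⟩ := hall w hw hw1
      have h3 := hinvJ (g⁻¹ * y * g⁻¹⁻¹) (hMn.conj_mem y hy g⁻¹)
      calc g * J * g⁻¹ * y * (g * J * g⁻¹)⁻¹ = g * (J * (g⁻¹ * y * g⁻¹⁻¹) * J⁻¹) * g⁻¹ := by group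
        _ = y⁻¹ := by rw [h3]; group
    have hJv : J * v * (J * v) = 1 := by
      calc J * v * (J * v) = J * (v * J) * v := by group
        _ = J * (J * v) * v := by rw [h.toHyp.comm hg₀]
        _ = (J * J) * (v * v) := by group
        _ = 1 := by rw [h.toHyp.sq, hv2, one_mul]
    have hJv1 : J * v ≠ 1 := by
      intro h3
      apply h.toHyp.not_mem
      rw [eq_inv_of_mul_eq_one_left h3]
      exact inv_mem hg₀
    apply hMne
    rw [Subgroup.eq_bot_iff_forall]
    intro y hy
    apply hno2 y hy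
    have h3 := hinv (J * v) hJv hJv1 y hy
    have h4 := hinv v hv2 hv1 y hy
    have h5 := hinvJ y⁻¹ (inv_mem hy)
    have h6 : J * v * y * (J * v)⁻¹ = J * (v * y * v⁻¹) * J⁻¹ := by group
    rw [h6, h4, h5, inv_inv] at h3
    rw [h3]
    nth_rw 2 [h3.symm]
    group

end Small

end Cfsg.Agent.H478.InvAlt
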